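import Mathlib
import Cfsg.Agent.Grp.UniqueOrderP
import Cfsg.Agent.Solv.FrobeniusAction

/-!
A `p`-group all of whose abelian subgroups are cyclic is cyclic or generalized quaternion.
-/

set_option autoImplicit false

namespace Cfsg.Agent.Grp

variable {G : Type*} [Group G]

theorem isCyclic_or_quaternion_of_comm_isCyclic [Finite G] {P : Subgroup G} {p : ℕ}
    [hp : Fact p.Prime] (hP : IsPGroup p P)
    (h : ∀ A : Subgroup G, A ≤ P → IsMulCommutative A → IsCyclic A) :
    IsCyclic P ∨ (p = 2 ∧ ∃ n : ℕ, 1 ≤ n ∧ Nonempty (P ≃* QuaternionGroup (2 ^ n))) := by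
  apply Grp.isCyclic_or_quaternion hP
  have key : ∀ x y : P, orderOf x = p → orderOf y = p → Commute x y →
      y ∈ Subgroup.zpowers x ∧ x ∈ Subgroup.zpowers y := by
    intro x y hx hy hxy
    let A : Subgroup G := Subgroup.closure {(x : G), (y : G)}
    have hA : A ≤ P := by
      rw [Subgroup.closure_le]
      rintro _ (rfl | rfl)
      exacts [x.2, y.2]
    have : IsMulCommutative A := by
      apply Subgroup.isMulCommutative_closure
      have h : (x : G) * y = y * x := congrArg Subtype.val hxy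
      rintro _ (rfl | rfl) _ (rfl | rfl)
      exacts [rfl, h, h.symm, rfl]
    have hc : IsCyclic A := h A hA this
    let x' : A := ⟨x, Subgroup.subset_closure (by simp)⟩
    let y' : A := ⟨y, Subgroup.subset_closure (by simp)⟩
    have hx' : orderOf x' = p := by rw [← Subgroup.orderOf_coe, ← hx, ← Subgroup.orderOf_coe x]
    have hy' : orderOf y' = p := by rw [← Subgroup.orderOf_coe, ← hy, ← Subgroup.orderOf_coe y]
    obtain ⟨i, hi⟩ : y' ∈ Subgroup.zpowers x' :=
      Solv.Frob.mem_zpowers_of_orderOf_dvd (by rw [hx', hy'])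
    obtain ⟨j, hj⟩ : x' ∈ Subgroup.zpowers y' :=
      Solv.Frob.mem_zpowers_of_orderOf_dvd (by rw [hx', hy'])
    exact ⟨⟨i, Subtype.ext (by simpa using congrArg Subtype.val hi)⟩,
      ⟨j, Subtype.ext (by simpa using congrArg Subtype.val hj)⟩⟩
  intro x y hx hy
  have : Nontrivial P := nontrivial_of_ne x 1 (by
    rintro rfl
    exact hp.out.one_lt.ne (by simpa using hx))
  obtain ⟨k, hk, hk'⟩ := (hP.to_subgroup (Subgroup.center P)).nontrivial_iff_card.1
    ((Subgroup.nontrivial_iff_ne_bot _).2 hP.bot_lt_center.ne')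
  obtain ⟨z, hz⟩ := exists_prime_orderOf_dvd_card' (G := Subgroup.center P) p
    (hk' ▸ dvd_pow_self p hk.ne')
  have hz' : orderOf (z : P) = p := by rw [Subgroup.orderOf_coe, hz]
  exact Subgroup.zpowers_le_of_mem (key x z hx hz' (Subgroup.mem_center_iff.1 z.2 x)).1
    (key y z hy hz' (Subgroup.mem_center_iff.1 z.2 y)).2

end Cfsg.Agent.Grp
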