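import Mathlib
import Cfsg.Agent.S0519
import Cfsg.Agent.Grp.CommCyclic
import Cfsg.Agent.Grp.PChain

/-!
# Imprimitivity of faithful irreducible modules of `p`-groups of normal rank at least two
-/

set_option autoImplicit false

namespace Cfsg.Agent.Grp.Imprim

open Subgroup
open scoped commutatorElement

variable {G : Type*} [Group G] [Finite G] {p : ℕ} [hp : Fact p.Prime]

/-- A `p`-group that is not cyclic, quaternion, dihedral or semidihedral has a noncyclic abelian
normal subgroup. -/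
theorem exists_normal_comm_not_isCyclic (hG : IsPGroup p G)
    (hnc : ¬ IsCyclic G) (hnq : ∀ n : ℕ, ¬ Nonempty (G ≃* QuaternionGroup n))
    (hnd : ∀ n : ℕ, ¬ Nonempty (G ≃* DihedralGroup n)) (hnsd : ¬ Cfsg.IsQuasiDihedral G) :
    ∃ A : Subgroup G, A.Normal ∧ IsMulCommutative A ∧ ¬ IsCyclic A := by
  by_contra h
  push Not at h
  by_cases hB : ∃ B : Subgroup G, IsMulCommutative B ∧ ¬ IsCyclic B
  · rcases (S0519.result p hG h hB).2 with ⟨n, hn⟩ | ⟨n, -, hn⟩ | hn
    exacts [hnq n hn, hnd n hn, hnsd hn]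
  · push Not at hB
    rcases isCyclic_or_quaternion_of_comm_isCyclic (P := (⊤ : Subgroup G)) (hG.to_subgroup ⊤)
      (fun A _ => hB A) with h1 | ⟨-, n, -, ⟨e⟩⟩
    · exact hnc (topEquiv.isCyclic.1 h1)
    · exact hnq _ ⟨topEquiv.symm.trans e⟩

/-- From a noncyclic abelian normal subgroup: a normal subgroup `⟨z, u⟩` of type `(p, p)`. -/
theorem exists_pair (hG : IsPGroup p G) {A : Subgroup G} [hAn : A.Normal]
    (hA : IsMulCommutative A) (hc : ¬ IsCyclic A) :
    ∃ z u : G, z ∈ center G ∧ orderOf z = p ∧ u ^ p = 1 ∧ u ∉ zpowers z ∧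
      ∀ g : G, ⁅u, g⁆ ∈ zpowers z := by
  let E : Subgroup G :=
    { carrier := {a | a ∈ A ∧ a ^ p = 1}
      one_mem' := ⟨A.one_mem, one_pow _⟩
      mul_mem' := fun {a b} ha hb => ⟨A.mul_mem ha.1 hb.1, by
        rw [(PChain.commute_of_mem hA ha.1 hb.1).mul_pow, ha.2, hb.2, one_mul]⟩
      inv_mem' := fun {a} ha => ⟨A.inv_mem ha.1, by rw [inv_pow, ha.2, inv_one]⟩ }
  have hEn : E.Normal := ⟨fun a ha g => ⟨hAn.conj_mem a ha.1 g, by rw [conj_pow, ha.2]; simp⟩⟩
  have hE : p ^ 2 ≤ Nat.card E := by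
    by_contra hlt
    apply hc
    refine isCyclic_of_card_pow_prime_le fun r hr => ?_
    by_cases hrp : r = p
    · subst hrp
      obtain ⟨k, hk⟩ := (hG.to_subgroup E).exists_card_eq
      have h1 : Nat.card {x : A // x ^ r = 1} = Nat.card E :=
        Nat.card_congr
          { toFun := fun x => ⟨x.1.1, x.1.2, congrArg Subtype.val x.2⟩
            invFun := fun x => ⟨⟨x.1, x.2.1⟩, Subtype.ext x.2.2⟩
            left_inv := fun _ => rfl
            right_inv := fun _ => rfl }
      rw [h1, hk]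
      rw [hk, not_le, Nat.pow_lt_pow_iff_right hr.one_lt] at hlt
      calc r ^ k ≤ r ^ 1 := Nat.pow_le_pow_right hr.pos (by omega)
        _ = r := pow_one r
    · have : Subsingleton {x : A // x ^ r = 1} := ⟨fun x y => by
        have key : ∀ x : {x : A // x ^ r = 1}, x.1 = 1 := fun x => by
          obtain ⟨k, hk⟩ := (hG.to_subgroup A) x.1
          exact orderOf_eq_one_iff.1 (Nat.eq_one_of_dvd_coprimes
            (((Nat.coprime_primes hr hp.out).2 hrp).pow_right k)
            (orderOf_dvd_of_pow_eq_one x.2) (orderOf_dvd_of_pow_eq_one hk))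
        exact Subtype.ext ((key x).trans (key y).symm)⟩
      exact (Finite.card_le_one_iff_subsingleton.2 this).trans hr.one_le
  obtain ⟨C, hCn, hCE, hC⟩ := PChain.exists_normal_le_card hG E 2 hE
  obtain ⟨B, u, hBn, hB, huB, -, hug, hCB⟩ := PChain.exists_normal_step_down hG C (k := 1) hC
  rw [pow_one] at hB
  have := isCyclic_of_prime_card hB
  obtain ⟨z, hz⟩ := (Subgroup.isCyclic_iff_exists_zpowers_eq_top B).1 this
  refine ⟨z, u, PChain.le_center_of_card_eq_prime hG B hB (hz ▸ mem_zpowers z), ?_,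
    (hCE (hCB ▸ mem_sup_right (mem_zpowers u))).2, hz ▸ huB, hz ▸ hug⟩
  rw [← Nat.card_zpowers, hz, hB]

section
variable {F V : Type*} [Field F] [AddCommGroup V] [Module F V]

/-- fixed space -/
def fix (ρ : G →* (V ≃ₗ[F] V)) (g : G) : Submodule F V :=
  LinearMap.eqLocus (ρ g : V →ₗ[F] V) LinearMap.id

omit [Finite G] in
theorem mem_fix {ρ : G →* (V ≃ₗ[F] V)} {g : G} {v : V} : v ∈ fix ρ g ↔ ρ g v = v := Iff.rfl

omit [Finite G] in
theorem map_fix (ρ : G →* (V ≃ₗ[F] V)) (g x : G) :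
    (fix ρ x).map (ρ g : V →ₗ[F] V) = fix ρ (g * x * g⁻¹) := by
  ext v
  constructor
  · rintro ⟨w, hw, rfl⟩
    have hw' : ρ x w = w := hw
    simp [mem_fix, hw']
  · intro hv
    refine ⟨ρ g⁻¹ v, ?_, by simp⟩
    have hv' : ρ (g * x * g⁻¹) v = v := hv
    change ρ x (ρ g⁻¹ v) = ρ g⁻¹ v
    conv_rhs => rw [← hv']
    simp

omit [Finite G] in
theorem fix_central {ρ : G →* (V ≃ₗ[F] V)} (hρ : Function.Injective ρ)
    (hirr : ∀ W : Submodule F V, (∀ g : G, ∀ w ∈ W, ρ g w ∈ W) → W = ⊥ ∨ W = ⊤)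
    {c : G} (hc : c ∈ center G) (h1 : c ≠ 1) : fix ρ c = ⊥ := by
  refine (hirr _ fun g w hw => ?_).resolve_right fun h => h1 (hρ ?_)
  · have : ρ g w ∈ (fix ρ c).map (ρ g : V →ₗ[F] V) := ⟨w, hw, rfl⟩
    rwa [map_fix, mem_center_iff.1 hc g, mul_inv_cancel_right] at this
  · rw [map_one]
    exact LinearEquiv.ext fun v => mem_fix.1 (h ▸ Submodule.mem_top)

omit [Finite G] hp in
theorem norm_mem_fix (ρ : G →* (V ≃ₗ[F] V)) {x : G} (hx : x ^ p = 1) (v : V) :
    ∑ j ∈ Finset.range p, ρ (x ^ j) v ∈ fix ρ x := by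
  rw [mem_fix, map_sum]
  have h := Finset.sum_range_succ' (fun j => ρ (x ^ j) v) p
  rw [Finset.sum_range_succ, hx, pow_zero, add_left_inj] at h
  rw [h]
  exact Finset.sum_congr rfl fun j _ => by rw [pow_succ', map_mul]; rfl

omit [Finite G] hp in
theorem pow_fix {ρ : G →* (V ≃ₗ[F] V)} {x : G} {v : V} (h : v ∈ fix ρ x) (j : ℕ) :
    ρ (x ^ j) v = v := by
  induction j with
  | zero => simp
  | succ j ih => rw [pow_succ, map_mul]; change ρ (x ^ j) (ρ x v) = v; rw [mem_fix.1 h, ih]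

/-- Imprimitivity from a normal subgroup of type `(p, p)`. -/
theorem imprimitive [Nontrivial V] (hG : IsPGroup p G) (ρ : G →* (V ≃ₗ[F] V))
    (hρ : Function.Injective ρ)
    (hirr : ∀ W : Submodule F V, (∀ g : G, ∀ w ∈ W, ρ g w ∈ W) → W = ⊥ ∨ W = ⊤)
    {z u : G} (hz : z ∈ center G) (hzo : orderOf z = p) (hu : u ^ p = 1) (huz : u ∉ zpowers z)
    (hug : ∀ g : G, ⁅u, g⁆ ∈ zpowers z) :
    ∃ (H : Subgroup G) (W : Fin p → Submodule F V), H.index = p ∧
      iSup W = ⊤ ∧ iSupIndep W ∧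
      (∀ h ∈ H, ∀ i, ∀ w ∈ W i, ρ h w ∈ W i) ∧
      (∀ i, ∃ h ∈ H, h ≠ 1 ∧ ∀ w ∈ W i, ρ h w = w) ∧
      ∀ g : G, g ∉ H → ∃ σ : Equiv.Perm (Fin p), orderOf σ = p ∧
        ∀ i, (W i).map (ρ g : V →ₗ[F] V) = W (σ i) := by
  have : NeZero p := ⟨hp.out.ne_zero⟩
  have hzp : z ^ p = 1 := hzo ▸ pow_orderOf_eq_one z
  have hz1 : z ≠ 1 := fun h => hp.out.one_lt.ne (by rw [← hzo, h, orderOf_one])
  have hcm : ∀ g : G, Commute g z := fun g => mem_center_iff.1 hz g
  have hnorm : ∀ c ∈ center G, c ≠ 1 → c ^ p = 1 → ∀ v,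
      ∑ j ∈ Finset.range p, ρ (c ^ j) v = 0 := fun c hc h1 hcp v => by
    have := norm_mem_fix ρ hcp v
    rwa [fix_central hρ hirr hc h1, Submodule.mem_bot] at this
  have hpF : (p : F) ≠ 0 := by
    intro h0
    have : CharP F p := (CharP.charP_iff_prime_eq_zero hp.out).2 h0
    have : CharP (Module.End F V) p := by
      have : Nontrivial (Module.End F V) := inferInstance
      exact charP_of_injective_algebraMap (algebraMap F (Module.End F V)).injective p
    let T : Module.End F V := (ρ z : V →ₗ[F] V)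
    have hT : (T - 1) ^ p = 0 := by
      rw [sub_pow_char_of_commute p (Commute.one_right T), one_pow, sub_eq_zero]
      ext v
      rw [Module.End.coe_pow]
      change (ρ z)^[p] v = v
      rw [← LinearEquiv.coe_pow, ← map_pow, hzp]; simp
    have hinj : Function.Injective (T - 1 : Module.End F V) := by
      rw [← LinearMap.ker_eq_bot, eq_bot_iff, ← fix_central hρ hirr hz hz1]
      intro v hv
      rw [LinearMap.mem_ker, LinearMap.sub_apply, sub_eq_zero] at hv
      exact hv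
    have h2 : Function.Injective ((T - 1) ^ p : Module.End F V) := by
      rw [Module.End.coe_pow]; exact hinj.iterate p
    obtain ⟨v, hv⟩ := exists_ne (0 : V)
    exact hv (h2 (by rw [hT]; simp))
  let x : Fin p → G := fun i => u * z ^ (i : ℕ)
  have hxp : ∀ i, x i ^ p = 1 := fun i => by
    simp only [x]
    rw [((hcm u).pow_right _).mul_pow, hu, ← pow_mul, mul_comm, pow_mul, hzp, one_pow, one_mul]
  have hx1 : ∀ i, x i ≠ 1 := fun i h => huz (by
    rw [eq_inv_of_mul_eq_one_left h]; exact inv_mem (npow_mem_zpowers z _))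
  have hadd : ∀ i a : Fin p, x (i + a) = x i * z ^ (a : ℕ) := fun i a => by
    simp only [x]
    rw [Fin.val_add, mul_assoc, ← pow_add]
    congr 1
    exact (pow_eq_pow_mod _ hzp).symm
  have hza : ∀ a : Fin p, a ≠ 0 → z ^ (a : ℕ) ≠ 1 := fun a ha h => by
    have h1 := orderOf_dvd_of_pow_eq_one h
    rw [hzo] at h1
    exact ha (Fin.ext (Nat.eq_zero_of_dvd_of_lt h1 a.2))
  have hsum : ∀ v : V, ∑ i : Fin p, ∑ j ∈ Finset.range p, ρ (x i ^ j) v = (p : F) • v := by
    intro v
    rw [Finset.sum_comm, Finset.sum_eq_single 0]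
    · simp [Nat.cast_smul_eq_nsmul]
    · intro j hj hj0
      have h1 : ∀ i : Fin p, ρ (x i ^ j) v = ρ ((z ^ j) ^ (i : ℕ)) (ρ (u ^ j) v) := fun i => by
        simp only [x]
        rw [((hcm u).pow_right _).mul_pow, ← pow_mul, mul_comm (i : ℕ), pow_mul,
          (((hcm _).pow_right _).pow_right _).eq, map_mul]
        rfl
      simp only [h1]
      rw [Fin.sum_univ_eq_sum_range (fun i => ρ ((z ^ j) ^ i) (ρ (u ^ j) v)) p]
      exact hnorm _ (pow_mem hz j)
        (hza ⟨j, Finset.mem_range.1 hj⟩ fun h => hj0 (congrArg Fin.val h))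
        (by rw [← pow_mul, mul_comm, pow_mul, hzp, one_pow]) _
    · intro h
      exact absurd (Finset.mem_range.2 hp.out.pos) h
  have htop : ⨆ i, fix ρ (x i) = ⊤ := by
    rw [eq_top_iff]
    intro v _
    have : (p : F) • v ∈ ⨆ i, fix ρ (x i) := by
      rw [← hsum]
      exact Submodule.sum_mem _ fun i _ =>
        Submodule.mem_iSup_of_mem i (norm_mem_fix ρ (hxp i) v)
    exact (Submodule.smul_mem_iff _ hpF).1 this
  have hxH : ∀ i, ∀ h ∈ centralizer ({u} : Set G), h * x i * h⁻¹ = x i := fun i h hh => by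
    have h1 : Commute h u := (mem_centralizer_singleton_iff.1 hh)
    rw [(h1.mul_right ((hcm h).pow_right _)).eq, mul_inv_cancel_right]
  refine ⟨centralizer {u}, fun i => fix ρ (x i), ?_, htop, ?_, ?_, ?_, ?_⟩
  · have h1 := PChain.relIndex_centralizer_le ⊤ (zpowers z) (u := u) fun g _ => hug g
    rw [relIndex_top_right, Nat.card_zpowers, hzo] at h1
    obtain ⟨k, hk⟩ := hG.index (centralizer ({u} : Set G))
    rcases k with _ | _ | k
    · exfalso
      rw [pow_zero, index_eq_one] at hk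
      have hb : ∀ i, fix ρ (x i) = ⊥ := fun i => fix_central hρ hirr
        (mem_center_iff.2 fun g => mul_inv_eq_iff_eq_mul.1 (hxH i g (hk ▸ mem_top g))) (hx1 i)
      simp only [hb, iSup_bot] at htop
      exact bot_ne_top htop
    · simpa using hk
    · exfalso
      rw [hk] at h1
      have : p ^ 1 < p ^ (k + 1 + 1) := Nat.pow_lt_pow_right hp.out.one_lt (by omega)
      rw [pow_one] at this
      omega
  · intro k
    rw [Submodule.disjoint_def]
    intro v hv hv'
    have h1 : ∑ j ∈ Finset.range p, ρ (x k ^ j) v = 0 := by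
      clear hv
      induction hv' using Submodule.iSup_induction' with
      | mem i w hw =>
        by_cases hik : i = k
        · simp only [hik, ne_eq, not_true_eq_false, iSup_false, Submodule.mem_bot] at hw
          simp [hw]
        · simp only [ne_eq, hik, not_false_eq_true, iSup_pos] at hw
          have e : x k = x i * z ^ ((k - i : Fin p) : ℕ) := by rw [← hadd, add_sub_cancel]
          have h2 : ∀ j, ρ (x k ^ j) w = ρ ((z ^ ((k - i : Fin p) : ℕ)) ^ j) w := fun j => by
            rw [e, ((hcm _).pow_right _).mul_pow, (((hcm _).pow_right _).pow_right _).eq, map_mul]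
            change ρ _ (ρ (x i ^ j) w) = _
            rw [pow_fix hw]
          simp only [h2]
          exact hnorm _ (pow_mem hz _) (hza _ (sub_ne_zero.2 (Ne.symm hik)))
            (by rw [← pow_mul, mul_comm, pow_mul, hzp, one_pow]) _
      | zero => simp
      | add a b _ _ ha hb => simp only [map_add, Finset.sum_add_distrib, ha, hb, add_zero]
    simp only [pow_fix hv, Finset.sum_const, Finset.card_range, ← Nat.cast_smul_eq_nsmul F] at h1
    exact (smul_eq_zero.1 h1).resolve_left hpF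
  · intro h hh i w hw
    have : ρ h w ∈ (fix ρ (x i)).map (ρ h : V →ₗ[F] V) := ⟨w, hw, rfl⟩
    rwa [map_fix, hxH i h hh] at this
  · intro i
    exact ⟨x i, mem_centralizer_singleton_iff.2
      ((Commute.refl u).mul_left ((hcm u).pow_right _).symm).eq, hx1 i, fun w hw => hw⟩
  · intro g hg
    obtain ⟨a, ha, ha'⟩ : ∃ a < p, z ^ a = ⁅u, g⁆⁻¹ := by
      classical
      have h1 := (mem_zpowers_iff_mem_range_orderOf (y := ⁅u, g⁆⁻¹) (x := z)).1 (inv_mem (hug g))
      obtain ⟨a, ha, e⟩ := Finset.mem_image.1 h1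
      exact ⟨a, by rw [← hzo]; exact Finset.mem_range.1 ha, e⟩
    have ha0 : (⟨a, ha⟩ : Fin p) ≠ 0 := fun h => hg (by
      have : a = 0 := congrArg Fin.val h
      rw [this, pow_zero, eq_comm, inv_eq_one, commutatorElement_eq_one_iff_mul_comm] at ha'
      exact mem_centralizer_singleton_iff.2 ha'.symm)
    refine ⟨Equiv.addRight (⟨a, ha⟩ : Fin p), orderOf_eq_prime ?_ fun h => ha0 ?_, fun i => ?_⟩
    · rw [Equiv.nsmul_addRight]
      have : p • (⟨a, ha⟩ : Fin p) = 0 := by
        have := card_nsmul_eq_zero (x := (⟨a, ha⟩ : Fin p))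
        rwa [Fintype.card_fin] at this
      rw [this]; ext i; simp
    · simpa using congrArg (fun σ : Equiv.Perm (Fin p) => σ 0) h
    · change _ = fix ρ (x (i + ⟨a, ha⟩))
      rw [map_fix, hadd]
      congr 1
      have e : g * u * g⁻¹ = z ^ a * u := by rw [ha', commutatorElement_def]; group
      change g * (u * z ^ (i : ℕ)) * g⁻¹ = u * z ^ (i : ℕ) * z ^ a
      calc g * (u * z ^ (i : ℕ)) * g⁻¹ = g * u * g⁻¹ * z ^ (i : ℕ) := by
            rw [mul_assoc (g * u), ((hcm g⁻¹).pow_right _).eq]; group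
        _ = _ := by rw [e, ← ((hcm u).pow_right a).eq, mul_assoc, mul_assoc, ← pow_add, ← pow_add,
              add_comm]
end

end Cfsg.Agent.Grp.Imprim
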