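import Mathlib
import Cfsg.Agent.Grp.MetaAut
import Cfsg.Agent.Fus.Flag

/-!
A metacyclic `p`-group, `p` odd, which is not homocyclic of rank two has a characteristic flag
above its Frattini subgroup.
-/

set_option autoImplicit false

open Subgroup
open scoped commutatorElement

namespace Cfsg.Agent.Grp.MetaAut

variable {X : Type*} [Group X] [Finite X] {p : ℕ} [hp : Fact p.Prime]

theorem index_eq_of_between (hX : IsPGroup p X) (h4 : (frattini X).index ≤ p ^ 2) {V : Subgroup X}
    (l1 : frattini X < V) (l2 : V < ⊤) : V.index = p ∧ (frattini X).relIndex V = p := by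
  have c1 := MaxClass.mul_card_le_of_lt hX l1
  have c2 := MaxClass.mul_card_le_of_lt hX l2
  rw [card_top] at c2
  have c3 := (frattini X).card_mul_index
  have c4 := V.card_mul_index
  have c5 : (frattini X).relIndex V * V.index = (frattini X).index := relIndex_mul_index l1.le
  have p1 : 0 < Nat.card (frattini X) := Nat.card_pos
  have p2 : 0 < Nat.card V := Nat.card_pos
  have p3 := hp.out.pos
  have i1 : p ≤ V.index := by nlinarith
  have i2 : p * V.index ≤ (frattini X).index := by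
    have : Nat.card (frattini X) * (p * V.index) ≤ Nat.card (frattini X) * (frattini X).index := by
      nlinarith
    exact Nat.le_of_mul_le_mul_left this p1
  have i3 : V.index = p := by nlinarith
  rw [i3] at c5 i2
  refine ⟨i3, ?_⟩
  have : (frattini X).relIndex V * p = p * p := by nlinarith
  exact Nat.eq_of_mul_eq_mul_right p3 this

omit [Finite X] in
theorem mem_zpowers_pow_of_pow_eq_one {a t : X} {n : ℕ} (ha : orderOf a = p ^ (n + 1))
    (ht : t ∈ zpowers a) (ht2 : t ^ p = 1) : t ∈ zpowers (a ^ p ^ n) := by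
  have hfin : IsOfFinOrder a := orderOf_pos_iff.1 (by rw [ha]; exact pow_pos hp.out.pos _)
  obtain ⟨i, rfl⟩ := hfin.mem_powers_iff_mem_zpowers.2 ht
  simp only at ht2 ⊢
  rw [← pow_mul, ← orderOf_dvd_iff_pow_eq_one, ha, pow_succ] at ht2
  obtain ⟨j, rfl⟩ := Nat.dvd_of_mul_dvd_mul_right hp.out.pos ht2
  rw [pow_mul]
  exact Subgroup.pow_mem _ (mem_zpowers _) j

theorem zpowers_eq_of_orderOf_prime {t z : X} (hz : orderOf z = p) (ht : t ∈ zpowers z)
    (h1 : t ≠ 1) : zpowers t = zpowers z := by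
  refine eq_of_le_of_card_ge (by simpa using ht) ?_
  rw [Nat.card_zpowers, Nat.card_zpowers, hz]
  have : orderOf t ∣ p := hz ▸ orderOf_dvd_of_mem_zpowers ht
  rcases (Nat.dvd_prime hp.out).1 this with h | h
  · exact absurd (orderOf_eq_one_iff.1 h) h1
  · exact h.ge

theorem exists_char_flag (hp2 : p ≠ 2) (hX : IsPGroup p X) (hm : IsMetacyclic X)
    (hh : ¬ ∃ n : ℕ, 0 < n ∧
      Nonempty (X ≃* Multiplicative (ZMod (p ^ n)) × Multiplicative (ZMod (p ^ n)))) :
    ∃ M : Subgroup X, (∀ α : MulAut X, ∀ x ∈ M, α x ∈ M) ∧ M.index ∣ p ∧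
      (frattini X).relIndex M ∣ p := by
  by_contra hno
  have h4 := index_frattini_le_sq hX hm
  have hΦ : ∀ α : MulAut X, ∀ x ∈ frattini X, α x ∈ frattini X := fun α x hx =>
    Fus.AC.inv_of_char ⊤ (frattini X) α trivial x hx
  have hcyc : ∀ a : X, zpowers a ≠ ⊤ := by
    intro a h
    refine hno ⟨⊤, fun _ _ _ => trivial, by simp, ?_⟩
    exact Fus.AC.relIndex_dvd_of_le_sup_zpowers (w := a) (by rw [h]; exact le_sup_right)
      (fun y _ => PFrattini.pow_mem_frattini hX y)
  have hinv : ∀ U : Subgroup X, (∀ α : MulAut X, ∀ x ∈ U, α x ∈ U) → U ≤ frattini X ∨ U = ⊤ := by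
    intro U hU
    by_contra hc
    rw [not_or] at hc
    obtain ⟨hc1, hc2⟩ := hc
    have l1 : frattini X < U ⊔ frattini X :=
      lt_of_le_of_ne le_sup_right (fun h => hc1 (h ▸ le_sup_left))
    have l2 : U ⊔ frattini X < ⊤ :=
      lt_top_iff_ne_top.2 (fun h => hc2 (eq_top_of_sup_le_frattini le_rfl h))
    obtain ⟨i1, i2⟩ := index_eq_of_between hX h4 l1 l2
    refine hno ⟨U ⊔ frattini X, fun α x hx => ?_, by rw [i1], by rw [i2]⟩
    have : (U ⊔ frattini X).map (α : X →* X) ≤ U ⊔ frattini X := by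
      rw [Subgroup.map_sup]
      refine sup_le_sup ?_ ?_
      · rintro _ ⟨x, hx, rfl⟩; exact hU α x hx
      · rintro _ ⟨x, hx, rfl⟩; exact hΦ α x hx
    exact this ⟨x, hx, rfl⟩
  obtain ⟨a, b, hA, hab⟩ := FT.R2.isMetacyclic_iff.1 hm
  have ha : a ∉ frattini X := by
    intro ha
    apply hcyc b
    refine eq_top_of_sup_le_frattini (D := zpowers a) (by simpa using ha) ?_
    rw [sup_comm, hab]
  obtain ⟨α, hc⟩ : ∃ α : MulAut X, α a ∉ zpowers a ⊔ frattini X := by
    by_contra hc
    push Not at hc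
    have : ∀ α : MulAut X, ∀ x ∈ zpowers a ⊔ frattini X, α x ∈ zpowers a ⊔ frattini X := by
      intro α x hx
      have : (zpowers a ⊔ frattini X).map (α : X →* X) ≤ zpowers a ⊔ frattini X := by
        rw [Subgroup.map_sup, MonoidHom.map_zpowers]
        refine sup_le (by simpa using hc α) ?_
        rintro _ ⟨x, hx, rfl⟩; exact mem_sup_right (hΦ α x hx)
      exact this ⟨x, hx, rfl⟩
    rcases hinv _ this with h | h
    · exact ha (h (mem_sup_left (mem_zpowers a)))
    · exact hcyc a (eq_top_of_sup_le_frattini le_rfl h)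
  have hC : (zpowers (α a)).Normal := by
    have := hA.map (α : X →* X) α.surjective
    rwa [MonoidHom.map_zpowers] at this
  have hAC : zpowers a ⊔ zpowers (α a) = ⊤ := by
    set M := zpowers a ⊔ frattini X with hM
    have l1 : frattini X < M :=
      lt_of_le_of_ne le_sup_right (fun h => ha (h ▸ mem_sup_left (mem_zpowers a)))
    have l2 : M < M ⊔ zpowers (α a) :=
      lt_of_le_of_ne le_sup_left (fun h => hc (h ▸ mem_sup_right (mem_zpowers _)))
    have c1 := MaxClass.mul_card_le_of_lt hX l1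
    have c2 := MaxClass.mul_card_le_of_lt hX l2
    have c3 := (frattini X).card_mul_index
    have c4 : Nat.card X ≤ Nat.card (M ⊔ zpowers (α a) : Subgroup X) := by
      calc Nat.card X = Nat.card (frattini X) * (frattini X).index := c3.symm
        _ ≤ Nat.card (frattini X) * p ^ 2 := Nat.mul_le_mul_left _ h4
        _ = p * (p * Nat.card (frattini X)) := by ring
        _ ≤ p * Nat.card M := Nat.mul_le_mul_left _ c1
        _ ≤ _ := c2
    have c5 : M ⊔ zpowers (α a) = ⊤ :=
      eq_top_of_card_eq _ (le_antisymm (card_le_card_group _) c4)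
    refine eq_top_of_sup_le_frattini le_rfl ?_
    rw [← c5, hM]
    simp only [sup_assoc, sup_comm (frattini X)]
  set c := α a with hcdef
  obtain ⟨n, hn⟩ := IsPGroup.iff_orderOf.1 hX a
  have hnc : orderOf c = p ^ n := by rw [hcdef, MulEquiv.orderOf_eq, hn]
  have hcA : c ∉ zpowers a := fun h => hc (mem_sup_left h)
  have hn0 : n ≠ 0 := by
    rintro rfl
    apply hcA
    rw [pow_zero, orderOf_eq_one_iff] at hnc
    rw [hnc]; exact one_mem _
  obtain ⟨n, rfl⟩ := Nat.exists_eq_succ_of_ne_zero hn0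
  set D := zpowers a ⊓ zpowers c with hD
  have hDZ : D ≤ center X := by
    intro d hd
    have h2 : (⊤ : Subgroup X) ≤ centralizer {d} := by
      rw [← hAC]
      refine sup_le ?_ ?_
      · rw [zpowers_le, mem_centralizer_singleton_iff]
        obtain ⟨k, hk⟩ := hd.1
        rw [← hk]
        exact ((Commute.refl a).zpow_right k).eq
      · rw [zpowers_le, mem_centralizer_singleton_iff]
        obtain ⟨k, hk⟩ := hd.2
        rw [← hk]
        exact ((Commute.refl c).zpow_right k).eq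
    rw [mem_center_iff]
    intro g
    exact mem_centralizer_singleton_iff.1 (h2 (mem_top g))
  have hw : ⁅a, c⁆ ∈ D := by
    refine ⟨?_, ?_⟩
    · have : ⁅a, c⁆ = a * (c * a⁻¹ * c⁻¹) := by group
      rw [this]
      exact (zpowers a).mul_mem (mem_zpowers a)
        (hA.conj_mem _ ((zpowers a).inv_mem (mem_zpowers a)) c)
    · have : ⁅a, c⁆ = (a * c * a⁻¹) * c⁻¹ := by group
      rw [this]
      exact (zpowers c).mul_mem (hC.conj_mem _ (mem_zpowers c) a)
        ((zpowers c).inv_mem (mem_zpowers c))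
  have hcomm : commutator X ≤ zpowers ⁅a, c⁆ :=
    FT.R2.commutator_le_zpowers (T := ⊥) bot_le (by simpa using hA) (by simpa using hAC)
  by_cases hD0 : D = ⊥
  · refine hh ⟨n + 1, by omega, ?_⟩
    have hac : Commute a c := by
      rw [hD0, mem_bot] at hw
      exact commutatorElement_eq_one_iff_commute.1 hw
    obtain ⟨e⟩ := Perm.nonempty_sup_mulEquiv_prod (zpowers a) (zpowers c)
      (by
        rintro _ ⟨i, rfl⟩ _ ⟨j, rfl⟩
        exact hac.zpow_zpow i j)
      (disjoint_iff.2 hD0)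
    have e1 : zpowers a ≃* Multiplicative (ZMod (p ^ (n + 1))) :=
      mulEquivOfCyclicCardEq (by simp [Nat.card_zpowers, hn])
    have e2 : zpowers c ≃* Multiplicative (ZMod (p ^ (n + 1))) :=
      mulEquivOfCyclicCardEq (by simp [Nat.card_zpowers, hnc])
    exact ⟨(topEquiv.symm.trans (MulEquiv.subgroupCongr hAC.symm)).trans
      (e.trans (e1.prodCongr e2))⟩
  obtain ⟨t, htD, ht1, ht2⟩ : ∃ t ∈ D, t ≠ 1 ∧ t ^ p = 1 := by
    have h2 : p ∣ Nat.card D := by
      obtain ⟨k, hk⟩ := (hX.to_subgroup D).exists_card_eq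
      rcases k with _ | k
      · exact absurd (card_eq_one.1 (by simpa using hk)) hD0
      · rw [hk]; exact dvd_pow_self p (by omega)
    obtain ⟨t, ht⟩ := exists_prime_orderOf_dvd_card' p h2
    refine ⟨t, t.2, ?_, ?_⟩
    · intro h
      rw [← Subgroup.orderOf_coe, h, orderOf_one] at ht
      exact hp.out.one_lt.ne ht
    · rw [← Subgroup.orderOf_coe] at ht
      rw [← ht, pow_orderOf_eq_one]
  have hoa : orderOf (a ^ p ^ n) = p := by
    rw [orderOf_pow' _ (pow_ne_zero _ hp.out.ne_zero), hn, Nat.gcd_eq_right (pow_dvd_pow p (by omega)),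
      pow_succ', Nat.mul_div_cancel _ (pow_pos hp.out.pos _)]
  have hoc : orderOf (c ^ p ^ n) = p := by
    rw [orderOf_pow' _ (pow_ne_zero _ hp.out.ne_zero), hnc,
      Nat.gcd_eq_right (pow_dvd_pow p (by omega)), pow_succ',
      Nat.mul_div_cancel _ (pow_pos hp.out.pos _)]
  have hta := zpowers_eq_of_orderOf_prime hoa (mem_zpowers_pow_of_pow_eq_one hn htD.1 ht2) ht1
  have htc := zpowers_eq_of_orderOf_prime hoc (mem_zpowers_pow_of_pow_eq_one hnc htD.2 ht2) ht1
  obtain ⟨j, hj⟩ : c ^ p ^ n ∈ zpowers (a ^ p ^ n) := by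
    rw [← hta, htc]; exact mem_zpowers _
  simp only at hj
  have hwZ : ∀ g : X, Commute ⁅a, c⁆ g := fun g => (mem_center_iff.1 (hDZ hw) g).symm
  obtain ⟨k, hk⟩ := IsPGroup.iff_orderOf.1 hX ⁅a, c⁆
  have hk2 : 2 * k ≤ n + 1 := by
    have d1 : orderOf ⁅a, c⁆ ∣ Nat.card D := orderOf_dvd_natCard D hw
    have d2 : orderOf ⁅a, c⁆ ∣ D.relIndex (zpowers a) := by
      rw [orderOf_dvd_iff_pow_eq_one, ← CommPow.commutator_pow_left (hwZ a),
        commutatorElement_eq_one_iff_commute]
      haveI : D.Normal := ⟨fun d hd g => by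
        rw [mem_center_iff.1 (hDZ hd) g, mul_inv_cancel_right]; exact hd⟩
      have := D.pow_relIndex_mem (mem_zpowers a)
      exact (mem_center_iff.1 (hDZ this) c).symm
    have d3 : Nat.card D * D.relIndex (zpowers a) = p ^ (n + 1) := by
      rw [← hn, ← Nat.card_zpowers, relIndex, ← (D.subgroupOf (zpowers a)).card_mul_index,
        Nat.card_congr (subgroupOfEquivOfLe (inf_le_left : D ≤ zpowers a)).toEquiv]
    have d4 := Nat.mul_dvd_mul d1 d2
    rw [d3, hk, ← pow_add] at d4
    have := (Nat.pow_dvd_pow_iff_le_right hp.out.one_lt).1 d4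
    omega
  have hmul : ∀ x y : X, (x * y) ^ p ^ n = x ^ p ^ n * y ^ p ^ n := by
    intro x y
    have h2 : ⁅y, x⁆ ∈ zpowers ⁅a, c⁆ :=
      hcomm (commutator_mem_commutator (mem_top y) (mem_top x))
    obtain ⟨i, hi⟩ := h2
    simp only at hi
    refine CommPow.mul_pow_eq_of_odd (by rw [← hi]; exact (hwZ x).zpow_left i)
      (by rw [← hi]; exact (hwZ y).zpow_left i) (hp.out.odd_of_ne_two hp2).pow ?_
    have h5 : ⁅a, c⁆ ^ p ^ n = 1 := by
      rw [← orderOf_dvd_iff_pow_eq_one, hk]; exact pow_dvd_pow p (by omega)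
    rw [← hi, ← zpow_natCast (⁅a, c⁆ ^ i), ← zpow_mul, mul_comm i, zpow_mul, zpow_natCast, h5,
      one_zpow]
  let K : Subgroup X :=
    { carrier := {x | x ^ p ^ n = 1}
      mul_mem' := fun {x y} hx hy => by
        simp only [Set.mem_setOf_eq] at hx hy ⊢
        rw [hmul, hx, hy, one_mul]
      one_mem' := by simp
      inv_mem' := fun {x} hx => by
        simp only [Set.mem_setOf_eq] at hx ⊢
        rw [inv_pow, hx, inv_one] }
  have hK : ∀ β : MulAut X, ∀ x ∈ K, β x ∈ K := by
    intro β x hx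
    change (β x) ^ p ^ n = 1
    change x ^ p ^ n = 1 at hx
    rw [← map_pow, hx, map_one]
  rcases hinv K hK with h | h
  · have h2 : (a ^ j)⁻¹ * c ∈ K := by
      change ((a ^ j)⁻¹ * c) ^ p ^ n = 1
      rw [hmul, ← hj, inv_pow, ← zpow_natCast (a ^ j), ← zpow_mul, mul_comm j, zpow_mul,
        zpow_natCast, inv_mul_cancel]
    apply hc
    have : c = a ^ j * ((a ^ j)⁻¹ * c) := by group
    rw [this]
    exact mul_mem (mem_sup_left ((zpowers a).zpow_mem (mem_zpowers a) j)) (mem_sup_right (h h2))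
  · have h2 : a ∈ K := by rw [h]; trivial
    change a ^ p ^ n = 1 at h2
    rw [h2, orderOf_one] at hoa
    exact hp.out.one_lt.ne hoa

/-- `p'`-groups of automorphisms of a metacyclic `p`-group (`p` odd) which is not homocyclic of
rank two are abelian of exponent dividing `p - 1`. -/
theorem comm_of_not_homocyclic (hp2 : p ≠ 2) (hX : IsPGroup p X) (hm : IsMetacyclic X)
    (hh : ¬ ∃ n : ℕ, 0 < n ∧
      Nonempty (X ≃* Multiplicative (ZMod (p ^ n)) × Multiplicative (ZMod (p ^ n))))
    {H : Subgroup (MulAut X)} (hH : (Nat.card H).Coprime p) :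
    IsMulCommutative H ∧ ∀ h ∈ H, h ^ (p - 1) = 1 := by
  obtain ⟨M, h1, h2, h3⟩ := exists_char_flag hp2 hX hm hh
  refine Fus.AC.comm_of_isPGroup_flagKer hX (𝒜 := ⊤) ?_ le_top hH
  refine Fus.AC.isPGroup_flagKer hX le_rfl ?_
  have s1 : Fus.AC.PStep p ⊤ (frattini X) M :=
    ⟨Fus.AC.inv_of_char _ _, fun α _ => h1 α, h3⟩
  have s2 : Fus.AC.PStep p ⊤ M ⊤ :=
    ⟨fun α _ => h1 α, Fus.AC.inv_top _, by rwa [relIndex_top_right]⟩
  exact (Relation.ReflTransGen.single s1).tail s2

end Cfsg.Agent.Grp.MetaAut
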