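import Mathlib
import Cfsg.Agent.Grp.CommPow
import Cfsg.Agent.Grp.Frattini

/-!
# `p`-central groups: for `p` odd, if all elements of order `p` of a finite `p`-group are central,
then the group is generated by at most `log_p |Ω₁|` elements
-/

set_option autoImplicit false
set_option linter.unusedSectionVars false
set_option linter.unusedVariables false

namespace Cfsg.Agent.Grp.PCentral

open Subgroup
open scoped commutatorElement

universe u

variable {p : ℕ} [hp : Fact p.Prime]

/-- All elements of order dividing `p` are central. -/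
def PC (p : ℕ) (G : Type*) [Group G] : Prop := ∀ x : G, x ^ p = 1 → x ∈ center G

/-- The subgroup of elements of order dividing `p`. -/
def om {G : Type*} [Group G] (h : PC p G) : Subgroup G where
  carrier := {x | x ^ p = 1}
  one_mem' := one_pow p
  mul_mem' := fun {x y} hx hy => by
    have : Commute x y := ((mem_center_iff.1 (h x hx)) y).symm
    show (x * y) ^ p = 1
    rw [this.mul_pow, hx, hy, one_mul]
  inv_mem' := fun {x} hx => by
    show x⁻¹ ^ p = 1
    rw [inv_pow, hx, inv_one]

variable {G : Type*} [Group G]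

theorem mem_om (h : PC p G) {x : G} : x ∈ om h ↔ x ^ p = 1 := Iff.rfl

theorem om_le (h : PC p G) : om h ≤ center G := fun x hx => h x hx

instance om_normal (h : PC p G) : (om h).Normal :=
  ⟨fun x hx g => by
    have := mem_center_iff.1 (om_le h hx) g
    rw [this, mul_inv_cancel_right]; exact hx⟩

theorem mul_pow_of (ho : Odd p) (h : PC p G) {x y : G} (hc : ⁅y, x⁆ ^ p = 1) :
    (x * y) ^ p = x ^ p * y ^ p :=
  CommPow.mul_pow_eq_of_odd ((mem_center_iff.1 (h _ hc)) x).symm
    ((mem_center_iff.1 (h _ hc)) y).symm ho hc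

theorem comm_pow_aux (ho : Odd p) (h : PC p G) (n : ℕ) :
    ∀ x g : G, x ^ p ∈ center G → g ∈ Subgroup.upperCentralSeries G n → ⁅x, g⁆ ^ p = 1 := by
  induction n with
  | zero =>
    intro x g _ hg
    rw [Subgroup.upperCentralSeries_zero, mem_bot] at hg
    simp [hg]
  | succ n ih =>
    intro x g hx hg
    have hc : ⁅x, g⁆ ∈ Subgroup.upperCentralSeries G n := by
      rw [← commutatorElement_inv]
      exact inv_mem (Subgroup.mem_upperCentralSeries_succ_iff.1 hg x)
    have h1 := ih x⁻¹ _ (by rw [inv_pow]; exact inv_mem hx) hc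
    have e1 : ⁅x, g⁆ = x * (g * x⁻¹ * g⁻¹) := by group
    have e2 : ⁅g * x⁻¹ * g⁻¹, x⁆ = ⁅x⁻¹, ⁅x, g⁆⁆ := by group
    rw [e1, mul_pow_of ho h (by rw [e2]; exact h1), conj_pow, inv_pow,
      mem_center_iff.1 (inv_mem hx) g]
    group

theorem comm_pow [Group.IsNilpotent G] (ho : Odd p) (h : PC p G) {x : G} (g : G)
    (hx : x ^ p ∈ center G) : ⁅x, g⁆ ^ p = 1 := by
  obtain ⟨n, hn⟩ := Group.IsNilpotent.nilpotent G
  exact comm_pow_aux ho h n x g hx (hn ▸ mem_top g)

theorem pc_quot [Group.IsNilpotent G] (ho : Odd p) (h : PC p G) : PC p (G ⧸ om h) := by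
  intro x hx
  induction x using QuotientGroup.induction_on with | H x => ?_
  rw [← QuotientGroup.mk_pow, QuotientGroup.eq_one_iff] at hx
  rw [mem_center_iff]
  intro g
  induction g using QuotientGroup.induction_on with | H g => ?_
  symm
  rw [← commutatorElement_eq_one_iff_mul_comm]
  have := comm_pow ho h g (om_le h hx)
  exact (QuotientGroup.eq_one_iff (N := om h) ⁅x, g⁆).2 this

theorem card_om_quot [Finite G] [Group.IsNilpotent G] (ho : Odd p) (h : PC p G) :
    Nat.card (om (pc_quot ho h)) ≤ Nat.card (om h) := by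
  have key : ∀ x : om (pc_quot ho h), ((x : G ⧸ om h).out) ^ p ∈ om h := fun x => by
    rw [← QuotientGroup.eq_one_iff, QuotientGroup.mk_pow, QuotientGroup.out_eq']
    exact x.2
  refine Nat.card_le_card_of_injective (fun x => ⟨_, key x⟩) fun x y hxy => ?_
  have e : (x : G ⧸ om h).out ^ p = (y : G ⧸ om h).out ^ p := congrArg Subtype.val hxy
  apply Subtype.ext
  rw [← QuotientGroup.out_eq' (x : G ⧸ om h), ← QuotientGroup.out_eq' (y : G ⧸ om h),
    QuotientGroup.eq, mem_om, mul_pow_of ho h (comm_pow ho h _ (om_le h (key y))), inv_pow, e,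
    inv_mul_cancel]

theorem pc_sub (h : PC p G) (M : Subgroup G) : PC p M := fun x hx =>
  mem_center_iff.2 fun g => Subtype.ext
    (mem_center_iff.1 (h x (by rw [← Subgroup.coe_pow, hx, Subgroup.coe_one])) g)

theorem gen_aux (ho : Odd p) (n : ℕ) : ∀ (G : Type u) [Group G] [Finite G], Nat.card G = n →
    IsPGroup p G → ∀ (h : PC p G) (k : ℕ), Nat.card (om h) ≤ p ^ k →
    ∃ S : Finset G, S.card ≤ k ∧ closure (S : Set G) = ⊤ := by
  classical
  induction n using Nat.strong_induction_on with | _ n ih => ?_
  intro G _ _ hn hG h k hk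
  rcases subsingleton_or_nontrivial G with hs | hs
  · exact ⟨∅, by simp, Subsingleton.elim _ _⟩
  have := hG.isNilpotent
  by_cases hF : om h ≤ frattini G
  · have hne : om h ≠ ⊥ := by
      obtain ⟨m, hm⟩ := hG.exists_card_eq
      have hd : p ∣ Nat.card G := by
        rw [hm]
        refine dvd_pow_self _ fun h0 => ?_
        rw [h0, pow_zero] at hm
        exact (Finite.one_lt_card (α := G)).ne' hm
      obtain ⟨x, hx⟩ := exists_prime_orderOf_dvd_card' p hd
      intro hb
      have : x ∈ om h := by rw [mem_om, ← hx, pow_orderOf_eq_one]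
      rw [hb, mem_bot] at this
      rw [this, orderOf_one] at hx
      exact hp.out.one_lt.ne hx
    have hlt : Nat.card (G ⧸ om h) < n := by
      rw [← hn, card_eq_card_quotient_mul_card_subgroup (om h)]
      exact lt_mul_of_one_lt_right Nat.card_pos ((one_lt_card_iff_ne_bot _).2 hne)
    obtain ⟨S, s1, s2⟩ := ih _ hlt (G ⧸ om h) rfl (hG.to_quotient _) (pc_quot ho h) k
      ((card_om_quot ho h).trans hk)
    refine ⟨S.image Quotient.out, Finset.card_image_le.trans s1, ?_⟩
    refine eq_top_of_map_eq_top_of_ker_le_frattini (QuotientGroup.mk' (om h))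
      (by rwa [QuotientGroup.ker_mk']) ?_
    rw [MonoidHom.map_closure, ← s2, Finset.coe_image, Set.image_image]
    simp
  · rw [le_frattini_iff] at hF
    push Not at hF
    obtain ⟨M, hM, hz⟩ := hF
    obtain ⟨z, z1, z2⟩ := SetLike.not_le_iff_exists.1 hz
    have hlt : Nat.card M < n := by
      rw [← hn, ← card_top (G := G)]
      exact card_lt_of_lt hM.1.lt_top
    have c1 : Nat.card (om (pc_sub h M)) < Nat.card (om h) := by
      rw [← card_map_of_injective (f := M.subtype) M.subtype_injective]
      refine card_lt_of_lt (lt_of_le_of_ne ?_ fun e => z2 ?_)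
      · rintro _ ⟨x, hx, rfl⟩
        exact congrArg Subtype.val (show x ^ p = 1 from hx)
      · rw [← e] at z1
        obtain ⟨x, -, rfl⟩ := z1
        exact x.2
    obtain ⟨a, ha⟩ := ((hG.to_subgroup M).to_subgroup (om (pc_sub h M))).exists_card_eq
    have c2 : a < k := by
      have := c1.trans_le hk
      rw [ha] at this
      exact (Nat.pow_lt_pow_iff_right hp.out.one_lt).1 this
    obtain ⟨S, s1, s2⟩ := ih _ hlt M rfl (hG.to_subgroup M) (pc_sub h M) a ha.le
    refine ⟨insert z (S.image Subtype.val), (Finset.card_insert_le _ _).trans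
      (by have := Finset.card_image_le (s := S) (f := Subtype.val); omega), ?_⟩
    have e : closure ((S.image Subtype.val : Finset G) : Set G) = M := by
      rw [Finset.coe_image]
      have := MonoidHom.map_closure M.subtype (S : Set M)
      rw [s2, ← MonoidHom.range_eq_map, range_subtype] at this
      exact this.symm
    rw [Finset.coe_insert, Set.insert_eq, Subgroup.closure_union, e]
    refine hM.2 _ (lt_of_le_of_ne le_sup_right fun e => z2 ?_)
    rw [e]
    exact mem_sup_left (subset_closure rfl)

/-- A finite `p`-central group (`p` odd) with `|Ω₁| ≤ p ^ k` is generated by `k` elements. -/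
theorem gen [Finite G] (ho : Odd p) (hG : IsPGroup p G) (h : PC p G) {k : ℕ}
    (hk : Nat.card (om h) ≤ p ^ k) : ∃ S : Finset G, S.card ≤ k ∧ closure (S : Set G) = ⊤ :=
  gen_aux ho _ G rfl hG h k hk

end Cfsg.Agent.Grp.PCentral
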