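import Mathlib
import Cfsg.Agent.Grp.PFrattini
import Cfsg.Agent.Grp.Frattini

/-!
# Patterson's bound: a `p`-subgroup of `GL(n, p)` is generated by `n² / 4` elements
-/

set_option autoImplicit false
set_option linter.unusedSectionVars false
set_option linter.unusedVariables false

namespace Cfsg.Agent.Grp.Patterson

open Module Subgroup
open scoped commutatorElement

variable {p : ℕ} [Fact p.Prime] {H : Type*} [Group H] [Finite H]

/-- The image of a subgroup under a map which is additive on `N`. -/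
def img {X : Type*} [AddCommGroup X] [Module (ZMod p) X] {N : Subgroup H} (δ : H → X)
    (hδ : ∀ x ∈ N, ∀ y ∈ N, δ (x * y) = δ x + δ y) (M : Subgroup H) : Submodule (ZMod p) X :=
  AddSubgroup.toZModSubmodule p
    { carrier := {v | ∃ x ∈ M, x ∈ N ∧ δ x = v}
      zero_mem' := ⟨1, one_mem _, one_mem _, by simpa using hδ 1 (one_mem _) 1 (one_mem _)⟩
      add_mem' := by
        rintro _ _ ⟨x, h1, h2, rfl⟩ ⟨y, h3, h4, rfl⟩
        exact ⟨x * y, mul_mem h1 h3, mul_mem h2 h4, hδ x h2 y h4⟩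
      neg_mem' := by
        rintro _ ⟨x, h1, h2, rfl⟩
        refine ⟨x⁻¹, inv_mem h1, inv_mem h2, eq_neg_of_add_eq_zero_left ?_⟩
        rw [← hδ _ (inv_mem h2) x h2, inv_mul_cancel]
        simpa using hδ 1 (one_mem _) 1 (one_mem _) }

theorem mem_img {X : Type*} [AddCommGroup X] [Module (ZMod p) X] {N : Subgroup H} {δ : H → X}
    {hδ : ∀ x ∈ N, ∀ y ∈ N, δ (x * y) = δ x + δ y} {M : Subgroup H} {v : X} :
    v ∈ img (p := p) δ hδ M ↔ ∃ x ∈ M, x ∈ N ∧ δ x = v := Iff.rfl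

theorem exists_gen {X : Type*} [AddCommGroup X] [Module (ZMod p) X] [Module.Finite (ZMod p) X]
    {N : Subgroup H} (δ : H → X) (hδ : ∀ x ∈ N, ∀ y ∈ N, δ (x * y) = δ x + δ y) (N' : Subgroup H)
    (hK : ∀ x ∈ N, δ x = 0 → x ∈ N') :
    ∃ T : Finset H, T.card + finrank (ZMod p) (img (p := p) δ hδ N') ≤
      finrank (ZMod p) (img (p := p) δ hδ ⊤) ∧ N ≤ closure (T : Set H) ⊔ N' := by
  classical
  have hle : img (p := p) δ hδ N' ≤ img δ hδ ⊤ := by
    rintro _ ⟨x, -, h, rfl⟩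
    exact ⟨x, mem_top _, h, rfl⟩
  obtain ⟨C, hC1, hC2⟩ := IsModularLattice.exists_disjoint_and_sup_eq hle
  obtain ⟨f, hf1, hf2, -⟩ := Submodule.exists_fun_fin_finrank_span_eq (ZMod p) (C : Set X)
  have : ∀ i, ∃ x ∈ N, δ x = f i := fun i => by
    have : f i ∈ img (p := p) δ hδ ⊤ := hC2 ▸ Submodule.mem_sup_right (hf1 i)
    obtain ⟨x, -, h⟩ := this
    exact ⟨x, h⟩
  choose t ht1 ht2 using this
  refine ⟨Finset.univ.image t, ?_, fun x hx => ?_⟩
  · have h1 := Finset.card_image_le (s := Finset.univ) (f := t)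
    have h2 := Submodule.finrank_sup_add_finrank_inf_eq (img (p := p) δ hδ N') C
    rw [hC2, hC1.eq_bot, finrank_bot] at h2
    rw [Finset.card_univ, Fintype.card_fin] at h1
    have h3 : finrank (ZMod p) (Submodule.span (ZMod p) (C : Set X)) = finrank (ZMod p) C := by
      rw [Submodule.span_eq]
    omega
  · set M := closure ((Finset.univ.image t : Finset H) : Set H) ⊔ N' with hM
    have h1 : img (p := p) δ hδ ⊤ ≤ img δ hδ M := by
      rw [← hC2, sup_le_iff]
      constructor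
      · rintro _ ⟨y, h1, h2, rfl⟩
        exact ⟨y, mem_sup_right h1, h2, rfl⟩
      · rw [← C.span_eq, ← hf2, Submodule.span_le]
        rintro _ ⟨i, rfl⟩
        exact ⟨t i, mem_sup_left (subset_closure (by simp)), ht1 i, ht2 i⟩
    obtain ⟨m, h2, h3, h4⟩ := h1 ⟨x, mem_top _, hx, rfl⟩
    have h5 : δ (x * m⁻¹) = 0 := by
      have := hδ _ (mul_mem hx (inv_mem h3)) m h3
      rw [inv_mul_cancel_right, h4] at this
      simpa using this
    have := mul_mem (mem_sup_right (S := closure ((Finset.univ.image t : Finset H) : Set H))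
      (hK _ (mul_mem hx (inv_mem h3)) h5)) h2
    rwa [inv_mul_cancel_right] at this

variable {V : Type*} [AddCommGroup V] [Module (ZMod p) V] [Module.Finite (ZMod p) V]
  (ρ : Representation (ZMod p) H V)

/-- Invariant submodules. -/
def Iv (U : Submodule (ZMod p) V) : Prop := ∀ h : H, ∀ v ∈ U, ρ h v ∈ U

/-- Trivial sections. -/
def Tr (U W : Submodule (ZMod p) V) : Prop := Iv ρ U ∧ U ≤ W ∧ ∀ h : H, ∀ v ∈ W, ρ h v - v ∈ U

variable {ρ}

theorem Tr.iv {U W : Submodule (ZMod p) V} (h : Tr ρ U W) : Iv ρ W := fun g v hv => by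
  simpa using W.add_mem (h.2.1 (h.2.2 g v hv)) hv

/-- The kernel of the action on a section. -/
def K {U W : Submodule (ZMod p) V} (hU : Iv ρ U) (hW : Iv ρ W) : Subgroup H where
  carrier := {h | ∀ v ∈ W, ρ h v - v ∈ U}
  one_mem' := fun v _ => by simp
  mul_mem' := fun {a b} ha hb v hv => by
    have := U.add_mem (ha _ (hW b v hv)) (hb v hv)
    simpa using this
  inv_mem' := fun {a} ha v hv => by
    have := U.neg_mem (ha _ (hW a⁻¹ v hv))
    simpa [← Module.End.mul_apply, ← map_mul] using this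

theorem mem_K {U W : Submodule (ZMod p) V} {hU : Iv ρ U} {hW : Iv ρ W} {h : H} :
    h ∈ K hU hW ↔ ∀ v ∈ W, ρ h v - v ∈ U := Iff.rfl

theorem K_normal {U W : Submodule (ZMod p) V} (hU : Iv ρ U) (hW : Iv ρ W) : (K hU hW).Normal :=
  ⟨fun x hx g v hv => by
    have := hU g _ (hx _ (hW g⁻¹ v hv))
    simpa [← Module.End.mul_apply, ← map_mul, mul_assoc] using this⟩

theorem exists_fixed (hH : IsPGroup p H) {U W : Submodule (ZMod p) V} (hU : Iv ρ U) (hW : Iv ρ W)
    (h : ¬ W ≤ U) : ∃ w ∈ W, w ∉ U ∧ ∀ g : H, ρ g w - w ∈ U := by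
  let σ := (ρ.subrepresentation W fun g v hv => hW g v hv).quotient (U.comap W.subtype)
    fun g v hv => hU g v hv
  let : MulAction H (W ⧸ U.comap W.subtype) := MulAction.compHom _ (σ : H →* _)
  have : Nontrivial (W ⧸ U.comap W.subtype) := Submodule.Quotient.nontrivial_iff.2 fun e =>
    h (Submodule.comap_subtype_eq_top.1 e)
  have : Finite (W ⧸ U.comap W.subtype) := Module.finite_of_finite (ZMod p)
  have hd : p ∣ Nat.card (W ⧸ U.comap W.subtype) := by
    rw [Module.natCard_eq_pow_finrank (K := ZMod p), Nat.card_zmod]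
    exact dvd_pow_self p Module.finrank_pos.ne'
  obtain ⟨b, hb, hb0⟩ := hH.exists_fixed_point_of_prime_dvd_card_of_fixed_point _ hd (a := 0)
    fun g => map_zero (σ g)
  obtain ⟨w, rfl⟩ := Submodule.Quotient.mk_surjective _ b
  refine ⟨w, w.2, fun hw =>
    hb0 ((Submodule.Quotient.mk_eq_zero (U.comap W.subtype)).2 hw).symm, fun g => ?_⟩
  exact (Submodule.Quotient.eq (U.comap W.subtype)).1 (hb g)

theorem tr_sup {U : Submodule (ZMod p) V} (hU : Iv ρ U) {w : V} (hw : ∀ g : H, ρ g w - w ∈ U) :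
    Tr ρ U (U ⊔ (ZMod p) ∙ w) := by
  refine ⟨hU, le_sup_left, fun g v hv => ?_⟩
  obtain ⟨u, hu, _, h, rfl⟩ := Submodule.mem_sup.1 hv
  obtain ⟨c, rfl⟩ := Submodule.mem_span_singleton.1 h
  have := U.add_mem (U.sub_mem (hU g u hu) hu) (U.smul_mem c (hw g))
  convert this using 1
  simp only [map_add, map_smul, smul_sub]
  abel

theorem finrank_sup {U : Submodule (ZMod p) V} {w : V} (hw : w ∉ U) :
    finrank (ZMod p) (U ⊔ (ZMod p) ∙ w : Submodule (ZMod p) V) = finrank (ZMod p) U + 1 := by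
  have h0 : w ≠ 0 := fun e => hw (e ▸ U.zero_mem)
  have := Submodule.finrank_sup_add_finrank_inf_eq U ((ZMod p) ∙ w)
  rwa [((Submodule.disjoint_span_singleton' h0).2 hw).eq_bot, finrank_bot, finrank_span_singleton h0,
    add_zero] at this

theorem gen_step (hH : IsPGroup p H) {N L : Subgroup H} {S T : Finset H}
    (hS : closure (S : Set H) ⊔ N = ⊤) (hT : N ≤ closure (T : Set H) ⊔ (⁅N, ⊤⁆ ⊔ L)) :
    ∃ R : Finset H, R.card ≤ S.card + T.card ∧ closure (R : Set H) ⊔ L = ⊤ := by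
  classical
  refine ⟨S ∪ T, Finset.card_union_le _ _, eq_top_of_sup_le_frattini
    (PFrattini.commutator_le_frattini hH) ?_⟩
  rw [eq_top_iff, ← hS, Finset.coe_union, Subgroup.closure_union]
  refine sup_le (le_sup_of_le_left (le_sup_of_le_left le_sup_left)) (hT.trans (sup_le
    (le_sup_of_le_left (le_sup_of_le_left le_sup_right)) (sup_le (le_sup_of_le_right ?_)
      (le_sup_of_le_left le_sup_right))))
  exact commutator_mono le_top le_rfl

theorem step_top {U W₁ W : Submodule (ZMod p) V} (hU : Iv ρ U) (hW₁ : Iv ρ W₁) (hW : Iv ρ W)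
    (hUW : U ≤ W₁) {w : V} (hw : ∀ g : H, ρ g w - w ∈ W₁) (e : W₁ ⊔ (ZMod p) ∙ w = W) :
    ∃ (T : Finset H) (U' D : Submodule (ZMod p) V), Tr ρ U' D ∧ U ≤ U' ∧ D ≤ W ∧
      T.card + finrank (ZMod p) U' ≤ finrank (ZMod p) D ∧
      K hU hW₁ ≤ closure (T : Set H) ⊔ (⁅K hU hW₁, ⊤⁆ ⊔ K hU hW) := by
  set N := K hU hW₁
  have hN := K_normal hU hW₁
  set δ : H → V ⧸ U := fun x => U.mkQ (ρ x w - w) with hδd
  have hδ : ∀ x ∈ N, ∀ y ∈ N, δ (x * y) = δ x + δ y := by
    intro x hx y _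
    simp only [hδd, Submodule.mkQ_apply]
    rw [← Submodule.Quotient.mk_add, Submodule.Quotient.eq]
    convert hx _ (hw y) using 1
    simp only [map_mul, Module.End.mul_apply, map_sub]
    abel
  obtain ⟨T, hT1, hT2⟩ := exists_gen (p := p) δ hδ (⁅N, ⊤⁆ ⊔ K hU hW) fun x hx h0 => by
    refine mem_sup_right fun v hv => ?_
    rw [← e] at hv
    obtain ⟨u, hu, _, h, rfl⟩ := Submodule.mem_sup.1 hv
    obtain ⟨c, rfl⟩ := Submodule.mem_span_singleton.1 h
    have := U.add_mem (hx u hu) (U.smul_mem c ((Submodule.Quotient.mk_eq_zero U).1 h0))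
    convert this using 1
    simp only [map_add, map_smul, smul_sub]
    abel
  have key : ∀ x ∈ N, ∀ g : H, U.mkQ (ρ g (ρ x w - w)) = δ (g * x * g⁻¹) := by
    intro x hx g
    simp only [hδd, Submodule.mkQ_apply]
    rw [Submodule.Quotient.eq]
    have := U.neg_mem (hU g _ (hx _ (hw g⁻¹)))
    convert this using 1
    simp only [map_mul, Module.End.mul_apply, map_sub, Representation.self_inv_apply]
    abel
  have key2 : ∀ (M : Subgroup H) (v : V), v ∈ (img (p := p) δ hδ M).comap U.mkQ →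
      ∃ x ∈ M, x ∈ N ∧ v - (ρ x w - w) ∈ U := by
    rintro M v ⟨x, h1, h2, h3⟩
    exact ⟨x, h1, h2, (Submodule.Quotient.eq U).1 h3.symm⟩
  have key3 : ∀ {x v}, v - (ρ x w - w) ∈ U → ∀ g, U.mkQ (ρ g v) = U.mkQ (ρ g (ρ x w - w)) := by
    intro x v h g
    simp only [Submodule.mkQ_apply]
    rw [Submodule.Quotient.eq, ← map_sub]
    exact hU g _ h
  have fr : ∀ X : Submodule (ZMod p) (V ⧸ U),
      finrank (ZMod p) (X.comap U.mkQ) = finrank (ZMod p) X + finrank (ZMod p) U := by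
    intro X
    have h1 := LinearMap.finrank_range_add_finrank_ker (U.mkQ.domRestrict (X.comap U.mkQ))
    rw [LinearMap.range_domRestrict, Submodule.map_comap_eq_of_surjective U.mkQ_surjective,
      LinearMap.ker_domRestrict, Submodule.ker_mkQ,
      (Submodule.comapSubtypeEquivOfLe (U.le_comap_mkQ X)).finrank_eq] at h1
    exact h1.symm
  refine ⟨T, (img δ hδ (⁅N, ⊤⁆ ⊔ K hU hW)).comap U.mkQ, (img δ hδ ⊤).comap U.mkQ,
    ⟨fun g v hv => ?_, Submodule.comap_mono ?_, fun g v hv => ?_⟩, fun u hu => ?_, fun v hv => ?_,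
    ?_, hT2⟩
  · obtain ⟨x, h1, h2, h3⟩ := key2 _ v hv
    have := K_normal hU hW
    exact ⟨g * x * g⁻¹, Normal.conj_mem inferInstance _ h1 g, hN.conj_mem _ h2 g,
      by rw [key3 h3, key x h2]⟩
  · rintro _ ⟨x, -, h, rfl⟩
    exact ⟨x, mem_top _, h, rfl⟩
  · obtain ⟨x, -, h2, h3⟩ := key2 _ v hv
    have h4 : x⁻¹ * (g * x * g⁻¹) ∈ N := mul_mem (inv_mem h2) (hN.conj_mem _ h2 g)
    refine ⟨x⁻¹ * (g * x * g⁻¹), mem_sup_left ?_, h4, ?_⟩
    · have := commutator_mem_commutator (inv_mem h2) (mem_top g)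
      simpa [commutatorElement_def, mul_assoc] using this
    · have h5 := hδ x h2 _ h4
      rw [mul_inv_cancel_left] at h5
      rw [map_sub, key3 h3, key x h2, h5]
      have : U.mkQ v = δ x := (Submodule.Quotient.eq U).2 h3
      rw [this]; abel
  · rw [Submodule.mem_comap, (Submodule.Quotient.mk_eq_zero U).2 hu |> (show U.mkQ u = 0 from ·)]
    exact Submodule.zero_mem _
  · obtain ⟨x, -, -, h3⟩ := key2 _ v hv
    have := W₁.add_mem (hUW h3) (hw x)
    rw [← e]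
    exact Submodule.mem_sup_left (by simpa using this)
  · rw [fr, fr]; omega

theorem step_bot {U W : Submodule (ZMod p) V} (hU : Iv ρ U) (hW : Iv ρ W) (hUW : U ≤ W) {w : V}
    (hwU : w ∉ U) (hw : ∀ g : H, ρ g w - w ∈ U) :
    ∃ (T : Finset H) (U' D : Submodule (ZMod p) V), Tr ρ U' D ∧ U ≤ U' ∧ D ≤ W ∧
      T.card + finrank (ZMod p) U' ≤ finrank (ZMod p) D ∧
      K (tr_sup hU hw).iv hW ≤ closure (T : Set H) ⊔ (⁅K (tr_sup hU hw).iv hW, ⊤⁆ ⊔ K hU hW) := by
  have hT := tr_sup hU hw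
  set N := K (tr_sup hU hw).iv hW
  have hN : N.Normal := K_normal _ hW
  obtain ⟨l, hl1, hl2⟩ := Submodule.exists_dual_map_eq_bot_of_notMem hwU inferInstance
  have l0 : ∀ u ∈ U, l u = 0 := fun u hu => by
    have : l u ∈ U.map l := ⟨u, hu, rfl⟩
    rwa [hl2] at this
  have l1 : ∀ u ∈ U ⊔ (ZMod p) ∙ w, l u = 0 → u ∈ U := by
    intro v hv h0
    obtain ⟨u, hu, _, h, rfl⟩ := Submodule.mem_sup.1 hv
    obtain ⟨c, rfl⟩ := Submodule.mem_span_singleton.1 h
    rw [map_add, l0 u hu, zero_add, map_smul, smul_eq_mul, mul_eq_zero] at h0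
    rw [h0.resolve_right hl1, zero_smul, add_zero]
    exact hu
  have l2 : ∀ u ∈ U ⊔ (ZMod p) ∙ w, ∀ g, l (ρ g u) = l u := fun u hu g => by
    rw [← sub_eq_zero, ← map_sub]
    exact l0 _ (hT.2.2 g u hu)
  set δ : H → Dual (ZMod p) W := fun x => l ∘ₗ (ρ x - 1) ∘ₗ W.subtype with hδd
  have δa : ∀ x (v : W), δ x v = l (ρ x v - v) := fun x v => rfl
  have hδ : ∀ x ∈ N, ∀ y ∈ N, δ (x * y) = δ x + δ y := by
    intro x _ y hy
    ext v
    rw [LinearMap.add_apply, δa, δa, δa, ← l2 _ (hy v v.2) x, ← map_add]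
    congr 1
    simp only [map_mul, Module.End.mul_apply, map_sub]
    abel
  have key : ∀ x ∈ N, ∀ (g : H) (v : W), δ x ⟨ρ g v, hW g v v.2⟩ = δ (g⁻¹ * x * g) v := by
    intro x hx g v
    have h1 : g⁻¹ * x * g ∈ N := by simpa using hN.conj_mem x hx g⁻¹
    rw [δa, δa, ← l2 _ (h1 v v.2) g]
    congr 1
    simp only [map_mul, Module.End.mul_apply, map_sub, Representation.self_inv_apply]
  obtain ⟨T, hT1, hT2⟩ := exists_gen (p := p) δ hδ (⁅N, ⊤⁆ ⊔ K hU hW) fun x hx h0 =>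
    mem_sup_right fun v hv => l1 _ (hx v hv) (by rw [← δa x ⟨v, hv⟩, h0]; rfl)
  refine ⟨T, (img (p := p) δ hδ ⊤).dualCoannihilator.map W.subtype,
    (img (p := p) δ hδ (⁅N, ⊤⁆ ⊔ K hU hW)).dualCoannihilator.map W.subtype,
    ⟨?_, Submodule.map_mono (Submodule.dualCoannihilator_anti ?_), ?_⟩, fun u hu => ?_,
    Submodule.map_subtype_le _ _, ?_, hT2⟩
  · rintro g _ ⟨v, hv, rfl⟩
    refine ⟨⟨ρ g v, hW g v v.2⟩, (Submodule.mem_dualCoannihilator _).2 ?_, rfl⟩
    rintro _ ⟨x, -, hx, rfl⟩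
    rw [key x hx]
    exact (Submodule.mem_dualCoannihilator _).1 hv _
      ⟨_, mem_top _, by simpa using hN.conj_mem x hx g⁻¹, rfl⟩
  · rintro _ ⟨x, -, h, rfl⟩
    exact ⟨x, mem_top _, h, rfl⟩
  · rintro g _ ⟨v, hv, rfl⟩
    refine ⟨⟨ρ g v, hW g v v.2⟩ - v, (Submodule.mem_dualCoannihilator _).2 ?_, rfl⟩
    rintro _ ⟨x, -, hx, rfl⟩
    have h4 : x⁻¹ * (g⁻¹ * x * g) ∈ N :=
      mul_mem (inv_mem hx) (by simpa using hN.conj_mem x hx g⁻¹)
    have h5 := hδ x hx _ h4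
    rw [mul_inv_cancel_left] at h5
    rw [map_sub, key x hx, h5, LinearMap.add_apply, add_sub_cancel_left]
    refine (Submodule.mem_dualCoannihilator _).1 hv _ ⟨_, mem_sup_left ?_, h4, rfl⟩
    have := commutator_mem_commutator (inv_mem hx) (mem_top g⁻¹)
    simpa [commutatorElement_def, mul_assoc] using this
  · refine ⟨⟨u, hUW hu⟩, (Submodule.mem_dualCoannihilator _).2 ?_, rfl⟩
    rintro _ ⟨x, -, -, rfl⟩
    exact l0 _ (U.sub_mem (hU x u hu) hu)
  · rw [Submodule.finrank_map_subtype_eq, Submodule.finrank_map_subtype_eq]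
    have h1 := Subspace.finrank_add_finrank_dualCoannihilator_eq (img (p := p) δ hδ ⊤)
    have h2 := Subspace.finrank_add_finrank_dualCoannihilator_eq
      (img (p := p) δ hδ (⁅N, ⊤⁆ ⊔ K hU hW))
    omega

/-- The bound in terms of the dimension and the largest trivial section. -/
def bd (n a : ℕ) : ℕ := if n ≤ 2 * a then a * (n - a) else n * n / 4

theorem bd_le (n a : ℕ) : bd n a ≤ n * n / 4 := by
  unfold bd
  split_ifs with h
  · rw [Nat.le_div_iff_mul_le (by norm_num)]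
    rcases le_total a n with h1 | h1
    · obtain ⟨b, rfl⟩ := Nat.exists_eq_add_of_le h1
      rw [Nat.add_sub_cancel_left]
      nlinarith [sq_nonneg ((a : ℤ) - b)]
    · rw [Nat.sub_eq_zero_of_le h1]; simp
  · exact le_rfl

theorem bd_succ {n a : ℕ} (h : a ≤ n) : bd n a + a ≤ bd (n + 1) a := by
  have h1 := bd_le n a
  by_cases h2 : n + 1 ≤ 2 * a
  · simp only [bd, if_pos h2, if_pos (show n ≤ 2 * a by omega)]
    rw [Nat.succ_sub h, Nat.mul_succ]
  · rw [show bd (n + 1) a = (n + 1) * (n + 1) / 4 by simp only [bd, if_neg h2],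
      show (n + 1) * (n + 1) = n * n + 2 * n + 1 by ring]
    omega

theorem main_aux (hH : IsPGroup p H) {U' D : Submodule (ZMod p) V} (hT : Tr ρ U' D) {a : ℕ}
    (ha : finrank (ZMod p) U' + a = finrank (ZMod p) D) (n : ℕ) :
    ∀ {U W : Submodule (ZMod p) V} (hU : Iv ρ U) (hW : Iv ρ W), U ≤ U' → D ≤ W →
      finrank (ZMod p) U + n = finrank (ZMod p) W →
      (∀ U₀ D₀, Tr ρ U₀ D₀ → U ≤ U₀ → D₀ ≤ W → finrank (ZMod p) D₀ ≤ finrank (ZMod p) U₀ + a) →
      ∃ S : Finset H, S.card ≤ bd n a ∧ closure (S : Set H) ⊔ K hU hW = ⊤ := by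
  induction n using Nat.strong_induction_on with
  | _ n ih =>
  intro U W hU hW h1 h2 h3 hmax
  have f1 := Submodule.finrank_mono h1
  have f2 := Submodule.finrank_mono h2
  by_cases e1 : U' ≤ U
  · by_cases e2 : W ≤ D
    · refine ⟨∅, by simp, eq_top_iff.2 fun g _ => mem_sup_right fun v hv => e1 (hT.2.2 g v (e2 hv))⟩
    · have : Finite V := Module.finite_of_finite (ZMod p)
      have : Finite (Submodule (ZMod p) V) := Finite.of_injective _ SetLike.coe_injective
      obtain ⟨W₁, ⟨a1, a2, a3, a4⟩, hm⟩ := Set.exists_max_image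
        {X : Submodule (ZMod p) V | Iv ρ X ∧ D ≤ X ∧ X ≤ W ∧ ¬ W ≤ X}
        (fun X => finrank (ZMod p) X) (Set.toFinite _) ⟨D, hT.iv, le_rfl, h2, e2⟩
      obtain ⟨w, b1, b2, b3⟩ := exists_fixed hH a1 hW a4
      have c1 : W₁ ⊔ (ZMod p) ∙ w ≤ W := sup_le a3 ((Submodule.span_singleton_le_iff_mem _ _).2 b1)
      have e : W₁ ⊔ (ZMod p) ∙ w = W := by
        refine le_antisymm c1 ?_
        by_contra hc
        have := hm _ ⟨(tr_sup a1 b3).iv, le_sup_of_le_left a2, c1, hc⟩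
        rw [finrank_sup b2] at this
        omega
      have f3 := finrank_sup (p := p) b2
      rw [e] at f3
      have f4 := Submodule.finrank_mono a2
      obtain ⟨m, rfl⟩ : ∃ m, n = m + 1 := ⟨n - 1, by omega⟩
      obtain ⟨S, s1, s2⟩ := ih m (by omega) hU a1 h1 a2 (by omega)
        fun U₀ D₀ t1 t2 t3 => hmax U₀ D₀ t1 t2 (t3.trans a3)
      obtain ⟨T, U₀, D₀, t1, t2, t3, t4, t5⟩ := step_top hU a1 hW (h1.trans (hT.2.1.trans a2)) b3 e
      obtain ⟨R, r1, r2⟩ := gen_step hH s2 t5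
      have := hmax U₀ D₀ t1 t2 t3
      have := bd_succ (n := m) (a := a) (by omega)
      exact ⟨R, by omega, r2⟩
  · obtain ⟨w, b1, b2, b3⟩ := exists_fixed hH hU hT.1 e1
    have c1 : U ⊔ (ZMod p) ∙ w ≤ U' := sup_le h1 ((Submodule.span_singleton_le_iff_mem _ _).2 b1)
    have f3 := finrank_sup (p := p) b2
    have f4 := Submodule.finrank_mono c1
    obtain ⟨m, rfl⟩ : ∃ m, n = m + 1 := ⟨n - 1, by omega⟩
    obtain ⟨S, s1, s2⟩ := ih m (by omega) (tr_sup hU b3).iv hW c1 h2 (by omega)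
      fun U₀ D₀ t1 t2 t3 => hmax U₀ D₀ t1 (le_sup_left.trans t2) t3
    obtain ⟨T, U₀, D₀, t1, t2, t3, t4, t5⟩ := step_bot hU hW (h1.trans (hT.2.1.trans h2)) b2 b3
    obtain ⟨R, r1, r2⟩ := gen_step hH s2 t5
    have := hmax U₀ D₀ t1 t2 t3
    have := bd_succ (n := m) (a := a) (by omega)
    exact ⟨R, by omega, r2⟩

/-- Patterson's theorem. -/
theorem patterson (hH : IsPGroup p H) (ρ : Representation (ZMod p) H V) :
    ∃ S : Finset H, S.card ≤ finrank (ZMod p) V * finrank (ZMod p) V / 4 ∧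
      closure (S : Set H) ⊔ MonoidHom.ker ρ = ⊤ := by
  have : Finite V := Module.finite_of_finite (ZMod p)
  have : Finite (Submodule (ZMod p) V) := Finite.of_injective _ SetLike.coe_injective
  have hb : Iv ρ ⊥ := fun g v hv => by rw [(Submodule.mem_bot _).1 hv, map_zero]; exact zero_mem _
  have ht : Iv ρ ⊤ := fun _ _ _ => trivial
  obtain ⟨⟨U', D⟩, hT, hm⟩ := Set.exists_max_image
    {X : Submodule (ZMod p) V × Submodule (ZMod p) V | Tr ρ X.1 X.2}
    (fun X => finrank (ZMod p) X.2 - finrank (ZMod p) X.1) (Set.toFinite _)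
    ⟨(⊥, ⊥), hb, le_rfl, fun g v hv => sub_mem (hb g v hv) hv⟩
  have hT' : Tr ρ U' D := hT
  have f : finrank (ZMod p) U' ≤ finrank (ZMod p) D := Submodule.finrank_mono hT'.2.1
  obtain ⟨S, s1, s2⟩ := main_aux hH hT' (a := finrank (ZMod p) D - finrank (ZMod p) U')
    (by omega) (finrank (ZMod p) V) hb ht bot_le le_top (by simp)
    fun U₀ D₀ t _ _ => by have := hm (U₀, D₀) t; simp only at this; omega
  refine ⟨S, s1.trans (bd_le _ _), ?_⟩
  rw [← s2]
  congr 1
  ext g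
  simp [mem_K, sub_eq_zero, LinearMap.ext_iff]

end Cfsg.Agent.Grp.Patterson
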